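import Cfsg.Agent.CentralExt.SteinbergCover

/-!
# The centre of a universal Chevalley group via a larger root system

An embedding of root data sends the universal group into a larger adjoint group; this detects the torus,
so the centre is the common kernel of the fundamental roots.
-/

set_option autoImplicit false

namespace Cfsg.Agent.CentralExt.Embed

open Cfsg.Lie Cfsg.Agent.ChevGrp
open scoped MatrixGroups

/-- A map of root indices preserving the commutator formula and the fundamental roots. -/
structure EmbedOK (D D' : ChevalleyDatum) (ι : ℕ → ℕ) (σ : Fin D.rank → Fin D'.rank) : Prop where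
  lt : ∀ r : Fin D.nroots, ι r < D'.nroots
  comm : ∀ r s : Fin D.nroots, (s : ℕ) ≠ r → (s : ℕ) ≠ D.neg r →
    ι s ≠ ι r ∧ ι s ≠ D'.neg (ι r) ∧
      D'.commTerms (ι r) (ι s) = (D.commTerms r s).map fun c => (ι c.1, c.2)
  simple : ∀ i : Fin D.rank, ι (D.simple i) = D'.simple (σ i) ∧
    ι (D.neg (D.simple i)) = D'.neg (D'.simple (σ i))

/-- Product of powers, additive in the exponents. -/
theorem zpow_sum' {A : Type*} [CommGroup A] {κ : Type*} (x : A) (f : κ → ℤ) (s : Finset κ) :
    x ^ (∑ k ∈ s, f k) = ∏ k ∈ s, x ^ f k := by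
  classical
  induction s using Finset.induction_on with
  | empty => simp
  | insert a s ha ih => rw [Finset.sum_insert ha, Finset.prod_insert ha, zpow_add, ih]

/-- Solving a system of monomial equations with an integral certificate. -/
theorem monomial_combine {A : Type*} [CommGroup A] {ρ κ : Type*} [Fintype ρ] [Fintype κ]
    (c : ρ → A) (M : ρ → κ → ℤ) (b : κ → ℤ) :
    ∏ j, c j ^ (∑ k, M j k * b k) = ∏ k, (∏ j, c j ^ M j k) ^ b k := by
  simp_rw [zpow_sum']
  rw [Finset.prod_comm]
  refine Finset.prod_congr rfl fun k _ => ?_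
  rw [← Finset.prod_zpow]
  exact Finset.prod_congr rfl fun j _ => zpow_mul _ _ _

variable {D D' : ChevalleyDatum} {K : Type*} [Field K] {ι : ℕ → ℕ} {σ : Fin D.rank → Fin D'.rank}

/-- The homomorphism into the larger matrix group. -/
theorem exists_embed_hom [Finite K] (hS : Rules D K) (hS' : Rules D' K) (hE : EmbedOK D D' ι σ) :
    ∃ Φ : D.SteinbergGroup K →* GL D'.Idx K, ∀ (i : Fin D.rank) (t : K),
      Φ ((stSys hS).hEl (D.simple i) t) = (glSys hS').hEl (D'.simple (σ i)) t := by
  obtain ⟨len, hR⟩ := hS.root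
  set f : Fin D.nroots × K → GL D'.Idx K := fun p => xGL D' K (ι p.1) p.2 with hf
  set g : ℕ → K → GL D'.Idx K := fun r t => if r < D.nroots then xGL D' K (ι r) t else 1 with hg
  have hX : ∀ (r : ℕ) (t : K), FreeGroup.lift f (D.stX r t) = g r t := by
    intro r t
    by_cases hr : r < D.nroots
    · simp [hg, hr, ChevalleyDatum.stX, hf]
    · simp [hg, hr, ChevalleyDatum.stX]
  have hkill : ∀ z ∈ D.steinbergRelsAB K, FreeGroup.lift f z = 1 := by
    rintro z (⟨r, t₁, t₂, hr, rfl⟩ | ⟨r, s, t, u, hr, hs, h1, h2, rfl⟩)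
    · simp only [map_mul, map_inv, hX, hg, hr, if_true]
      exact mul_inv_eq_one.2 ((glSys hS').x_add _ (hE.lt ⟨r, hr⟩) t₁ t₂)
    · simp only [map_mul, map_inv, hX, stWord_lift _ _ hX]
      obtain ⟨h1', h2', hterm⟩ := hE.comm ⟨r, hr⟩ ⟨s, hs⟩ h1 h2
      have e : ((D.commWord K r s t u).map fun p => g p.1 p.2).prod =
          ((D'.commWord K (ι r) (ι s) t u).map fun p => xGL D' K p.1 p.2).prod := by
        simp only [ChevalleyDatum.commWord, hterm, List.map_map]
        refine congrArg List.prod (List.map_congr_left fun c hc' => ?_)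
        simp [hg, (hR.commTerms_vec r hr s hs h1 h2 c hc').1]
      rw [e]
      simp only [hg, hr, hs, if_true]
      have e2 : xGL D' K (ι s) u * xGL D' K (ι r) t = xGL D' K (ι r) t * xGL D' K (ι s) u *
          ((D'.commWord K (ι r) (ι s) t u).map fun p => xGL D' K p.1 p.2).prod :=
        (glSys hS').comm (ι r) (hE.lt ⟨r, hr⟩) (ι s) (hE.lt ⟨s, hs⟩) h1' h2' t u
      rw [mul_inv_eq_one, mul_assoc, mul_assoc, e2]
      simp [mul_assoc]
  obtain ⟨e, he⟩ := Cover.exists_equiv_steinberg (D := D) hS
  set Φ := (PresentedGroup.toGroup hkill).comp e.symm.toMonoidHom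
  have hΦ : ∀ r < D.nroots, ∀ t : K, Φ (D.stGen K r t) = xGL D' K (ι r) t := by
    intro r hr t
    rw [MonoidHom.comp_apply, ← he r t, MulEquiv.coe_toMonoidHom, e.symm_apply_apply]
    simp only [ChevalleyDatum.scGen, ChevalleyDatum.stX, dif_pos hr]
    exact PresentedGroup.toGroup.of _
  refine ⟨Φ, fun i t => ?_⟩
  have hp := hR.simple_lt i i.2
  have hn := hR.neg_lt _ hp
  obtain ⟨s1, s2⟩ := hE.simple i
  simp [Sys.hEl, Sys.nEl, stSys, glSys, hΦ _ hp, hΦ _ hn, s1, s2]

/-- The torus of the universal group is faithful on the kernel of the fundamental roots. -/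
theorem center_equiv_rootKer [Finite K] (hS : Rules D K) (hS' : Rules D' K) (hE : EmbedOK D D' ι σ)
    (hM : ∃ M : Fin D'.rank → Fin D.rank → ℤ, ∀ i j : Fin D.rank,
      ∑ k : Fin D'.rank, D'.cartan (σ j) (D'.simple k) * M k i = if j = i then 1 else 0) :
    Nonempty (rootKer D K ≃* Subgroup.center (D.SteinbergGroup K)) := by
  classical
  obtain ⟨len, hR⟩ := hS.root
  obtain ⟨len', hR'⟩ := hS'.root
  obtain ⟨Φ, hΦ⟩ := exists_embed_hom hS hS' hE
  obtain ⟨M, hM⟩ := hM
  set T := (stSys hS).tau hS hR (stSys_HMul hS hR) with hT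
  have key : ∀ c : Fin D.rank → Kˣ, ((Φ (T c) : GL D'.Idx K) : Matrix D'.Idx D'.Idx K) =
      Matrix.diagonal (Sum.elim (fun _ => (1 : K))
        fun s : Fin D'.nroots => ((∏ j : Fin D.rank, c j ^ D'.cartan (σ j) s : Kˣ) : K)) := by
    intro c
    induction c using Pi.mulSingle_induction with
    | one =>
      rw [map_one, map_one, Units.val_one, ← Matrix.diagonal_one]
      congr 1
      funext a
      cases a <;> simp
    | mul x y hx hy =>
      rw [map_mul, map_mul, Units.val_mul, hx, hy, Matrix.diagonal_mul_diagonal]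
      congr 1
      funext a
      rcases a with a | a
      · simp
      · simp only [Sum.elim_inr, Pi.mul_apply, mul_zpow, Finset.prod_mul_distrib, Units.val_mul]
    | mulSingle i u =>
      rw [hT, Sys.tau, MonoidHom.noncommPiCoprod_mulSingle]
      have e : Φ ((stSys hS).hHom hR (stSys_HMul hS hR) i u) =
          (glSys hS').hEl (D'.simple (σ i)) (u : K) := hΦ i u
      rw [e]
      change (glSys hS').mat ((glSys hS').hEl (D'.simple (σ i)) (u : K)) = _
      rw [(glSys hS').mat_hEl hR' (hR'.simple_lt _ (σ i).2), hS'.hMat_simple _ (σ i).2 _ u.ne_zero]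
      congr 1
      funext a
      rcases a with a | a
      · rfl
      · simp only [Sum.elim_inr]
        rw [Finset.prod_eq_single i (fun j _ hj => by simp [Pi.mulSingle_eq_of_ne hj]) (by simp),
          Pi.mulSingle_eq_same, Units.val_zpow_eq_zpow_val]
  have hinj : Function.Injective T := by
    rw [injective_iff_map_eq_one]
    intro c hc
    have h1 := key c
    rw [hc, map_one, Units.val_one, ← Matrix.diagonal_one, Matrix.diagonal_eq_diagonal_iff] at h1
    funext i
    calc c i = ∏ j : Fin D.rank, c j ^ (∑ k : Fin D'.rank, D'.cartan (σ j) (D'.simple k) * M k i) := by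
          simp [hM]
      _ = ∏ k : Fin D'.rank, (∏ j : Fin D.rank, c j ^ D'.cartan (σ j) (D'.simple k)) ^ M k i :=
          monomial_combine c _ _
      _ = 1 := by
          refine Finset.prod_eq_one fun k _ => ?_
          have := h1 (Sum.inr ⟨D'.simple k, hR'.simple_lt k k.2⟩)
          simp only [Sum.elim_inr] at this
          rw [show (∏ j : Fin D.rank, c j ^ D'.cartan (σ j) (D'.simple k)) = 1 from
            Units.ext (by rw [Units.val_one]; exact this.symm), one_zpow]
  refine ⟨((rootKer D K).equivMapOfInjective T hinj).trans (MulEquiv.subgroupCongr ?_)⟩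
  exact (center_le_tau_rootKer hS hR).symm

/-- Integral data computing the kernel of the fundamental roots. -/
structure KerCert (D : ChevalleyDatum) (m : ℕ) (i₀ : Fin D.rank) (v : Fin D.rank → ℤ) : Prop where
  v_i₀ : v i₀ = 1
  solve : ∃ B : Fin D.rank → Fin D.rank → ℤ, ∀ i j : Fin D.rank,
    ∑ k : Fin D.rank, D.cartan j (D.simple k) * B k i =
      (if j = i then 1 else 0) - (if j = i₀ then v i else 0)
  bound : ∃ b : Fin D.rank → ℤ, ∀ j : Fin D.rank,
    ∑ k : Fin D.rank, D.cartan j (D.simple k) * b k = if j = i₀ then (m : ℤ) else 0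
  mem : ∀ k : Fin D.rank, (m : ℤ) ∣ ∑ j : Fin D.rank, v j * D.cartan j (D.simple k)

/-- The common kernel of the fundamental roots is the group of `m`-th roots of unity. -/
theorem rootKer_cyclic [Finite K] {m : ℕ} {i₀ : Fin D.rank} {v : Fin D.rank → ℤ}
    (h : KerCert D m i₀ v) :
    IsCyclic (rootKer D K) ∧ Nat.card (rootKer D K) = Nat.gcd m (Nat.card K - 1) := by
  classical
  obtain ⟨B, hB⟩ := h.solve
  obtain ⟨b, hb⟩ := h.bound
  set φ : (powMonoidHom (α := Kˣ) m).ker →* rootKer D K :=
    { toFun := fun x => ⟨fun j => (x : Kˣ) ^ v j, fun k => by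
        obtain ⟨d, hd⟩ := h.mem k
        have hx : (x : Kˣ) ^ m = 1 := x.2
        simp_rw [← zpow_mul, ← zpow_sum', hd]
        rw [zpow_mul, zpow_natCast, hx, one_zpow]⟩
      map_one' := Subtype.ext (funext fun j => one_zpow _)
      map_mul' := fun x y => Subtype.ext (funext fun j => mul_zpow _ _ _) } with hφ
  have hinj : Function.Injective φ := by
    intro x y e
    have := congrFun (congrArg Subtype.val e) i₀
    simp only [hφ, MonoidHom.coe_mk, OneHom.coe_mk, h.v_i₀, zpow_one] at this
    exact Subtype.ext this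
  have hsur : Function.Surjective φ := by
    rintro ⟨c, hc⟩
    have hm : c i₀ ^ m = 1 := by
      calc c i₀ ^ m = ∏ j : Fin D.rank, c j ^ (if j = i₀ then (m : ℤ) else 0) := by
            rw [Finset.prod_eq_single i₀ (fun j _ hj => by simp [hj]) (by simp), if_pos rfl, zpow_natCast]
        _ = ∏ j : Fin D.rank, c j ^ (∑ k : Fin D.rank, D.cartan j (D.simple k) * b k) := by simp [hb]
        _ = 1 := by
            rw [monomial_combine]
            exact Finset.prod_eq_one fun k _ => by rw [hc k, one_zpow]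
    refine ⟨⟨c i₀, hm⟩, Subtype.ext (funext fun i => ?_)⟩
    have e : ∏ j : Fin D.rank, c j ^ ((if j = i then (1 : ℤ) else 0) - (if j = i₀ then v i else 0)) = 1 := by
      simp only [← hB]
      rw [monomial_combine]
      exact Finset.prod_eq_one fun k _ => by rw [hc k, one_zpow]
    simp only [zpow_sub, Finset.prod_mul_distrib, Finset.prod_inv_distrib] at e
    rw [Finset.prod_eq_single i (fun j _ hj => by simp [hj]) (by simp),
      Finset.prod_eq_single i₀ (fun j _ hj => by simp [hj]) (by simp)] at e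
    simp only [if_true, zpow_one, mul_inv_eq_one] at e
    exact e.symm
  refine ⟨isCyclic_of_surjective φ hsur, ?_⟩
  rw [← Nat.card_eq_of_bijective φ ⟨hinj, hsur⟩, IsCyclic.card_powMonoidHom_ker, Nat.card_units,
    Nat.gcd_comm]

theorem center_cyclic [Finite K] (hS : Rules D K) (hS' : Rules D' K) (hE : EmbedOK D D' ι σ)
    (hM : ∃ M : Fin D'.rank → Fin D.rank → ℤ, ∀ i j : Fin D.rank,
      ∑ k : Fin D'.rank, D'.cartan (σ j) (D'.simple k) * M k i = if j = i then 1 else 0)
    {m : ℕ} {i₀ : Fin D.rank} {v : Fin D.rank → ℤ} (h : KerCert D m i₀ v) :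
    IsCyclic (Subgroup.center (D.SteinbergGroup K)) ∧
      Nat.card (Subgroup.center (D.SteinbergGroup K)) = Nat.gcd m (Nat.card K - 1) := by
  obtain ⟨e⟩ := center_equiv_rootKer hS hS' hE hM
  obtain ⟨hcyc, hcard⟩ := rootKer_cyclic (K := K) h
  exact ⟨e.isCyclic.1 hcyc, by rw [← Nat.card_congr e.toEquiv, hcard]⟩

end Cfsg.Agent.CentralExt.Embed
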